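import Mathlib
import Cfsg.Agent.Coprime.External
import Cfsg.Agent.OddCons.Basic

/-!
An automorphism of order three of a group of order prime to three with no fixed involution: inheritance by
invariant subgroups and quotients, and solvability, granted that the simple groups of order prime to three
have one class of involutions.
-/

set_option autoImplicit false

open Pointwise

namespace CfsgLib.ThreeFree

universe u

/-- The simple groups of order prime to three have one class of involutions. -/
def OneClass : Prop :=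
  ∀ (G : Type u) [Group G] [Finite G] [IsSimpleGroup G], (∃ a b : G, a * b ≠ b * a) →
    ¬ 3 ∣ Nat.card G → ∀ s t : G, orderOf s = 2 → orderOf t = 2 → IsConj s t

variable {G : Type u} [Group G]

/-- `σ` has order dividing three and fixes no involution. -/
structure Op (σ : MulAut G) : Prop where
  cube : ∀ g : G, σ (σ (σ g)) = g
  free : ∀ g : G, σ g = g → g * g = 1 → g = 1
  notThree : ¬ 3 ∣ Nat.card G

theorem Op.pow_three {σ : MulAut G} (h : Op σ) : σ ^ 3 = 1 := by
  ext g
  rw [pow_succ, pow_two]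
  exact h.cube g

theorem apply_inv_of_cube {σ : MulAut G} (h : Op σ) (g : G) : σ.symm g = σ (σ g) := by
  apply σ.injective
  rw [σ.apply_symm_apply, h.cube]

theorem Op.coprime [Finite G] {σ : MulAut G} (h : Op σ) :
    (Nat.card (Subgroup.zpowers σ)).Coprime (Nat.card G) := by
  rw [Nat.card_zpowers]
  exact (Nat.prime_three.coprime_iff_not_dvd.2 h.notThree).coprime_dvd_left
    (orderOf_dvd_of_pow_eq_one h.pow_three)

/-- A fixed element has odd order. -/
theorem Op.odd_orderOf [Finite G] {σ : MulAut G} (h : Op σ) {g : G} (hg : σ g = g) : Odd (orderOf g) := by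
  rw [← Nat.not_even_iff_odd]
  rintro ⟨m, hm⟩
  have h1 : g ^ m = 1 := h.free _ (by rw [map_pow, hg]) (by rw [← pow_add, ← hm, pow_orderOf_eq_one])
  have h2 := Nat.le_of_dvd (by have := orderOf_pos g; omega) (orderOf_dvd_of_pow_eq_one h1)
  have := orderOf_pos g
  omega

theorem Op.zpowers_cases [Finite (MulAut G)] {σ : MulAut G} (h : Op σ) (a : Subgroup.zpowers σ) :
    (a : MulAut G) = 1 ∨ (a : MulAut G) = σ ∨ (a : MulAut G) = σ * σ := by
  classical
  obtain ⟨i, hi, hai⟩ := Finset.mem_image.1 (mem_zpowers_iff_mem_range_orderOf.1 a.2)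
  rw [Finset.mem_range] at hi
  have h3 : orderOf σ ≤ 3 := Nat.le_of_dvd (by norm_num) (orderOf_dvd_of_pow_eq_one h.pow_three)
  rw [← hai]
  match i, hi with
  | 0, _ => exact Or.inl (pow_zero σ)
  | 1, _ => exact Or.inr (Or.inl (pow_one σ))
  | 2, _ => exact Or.inr (Or.inr (pow_two σ))
  | (k + 3), hk => omega

theorem invariant_zpowers [Finite (MulAut G)] {σ : MulAut G} (N : Subgroup G) (hN : ∀ n ∈ N, σ n ∈ N)
    (h : Op σ) (a : Subgroup.zpowers σ) : ∀ n ∈ N, (a : MulAut G) n ∈ N := by
  intro n hn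
  rcases h.zpowers_cases a with e | e | e <;> rw [e]
  · exact hn
  · exact hN n hn
  · exact hN _ (hN n hn)

theorem fixed_zpowers {σ : MulAut G} {g : G} (hg : σ g = g) (a : Subgroup.zpowers σ) :
    (a : MulAut G) g = g :=
  Subgroup.zpowers_le.2 (show σ ∈ MulAction.stabilizer (MulAut G) g from hg) a.2

/-- Fixed points of invariant quotients lift. -/
theorem Op.exists_fixed [Finite G] [Finite (MulAut G)] {σ : MulAut G} (h : Op σ) (N : Subgroup G)
    (hN : ∀ n ∈ N, σ n ∈ N) {g : G} (hg : g⁻¹ * σ g ∈ N) : ∃ n ∈ N, σ (g * n) = g * n := by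
  have hall : ∀ a : Subgroup.zpowers σ, g⁻¹ * (a : MulAut G) g ∈ N := by
    intro a
    rcases h.zpowers_cases a with e | e | e <;> rw [e]
    · simp
    · exact hg
    · have h2 := hN _ hg
      rw [map_mul, map_inv] at h2
      have h3 := mul_mem hg h2
      rwa [mul_assoc, mul_inv_cancel_left] at h3
  obtain ⟨n, hn, hfix⟩ := CfsgLib.Coprime.exists_fixed_mul_of_action (Subgroup.zpowers σ).subtype h.coprime
    (Or.inl (CfsgLib.Coprime.isSolvable_zpowers σ)) N (fun a n hn => invariant_zpowers N hN h a n hn) hall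
  exact ⟨n, hn, hfix ⟨σ, Subgroup.mem_zpowers σ⟩⟩

theorem map_eq_of_invariant [Finite G] {σ : MulAut G} (N : Subgroup G) (hN : ∀ n ∈ N, σ n ∈ N) :
    N.map σ.toMonoidHom = N :=
  Subgroup.eq_of_le_of_card_ge (by rintro _ ⟨n, hn, rfl⟩; exact hN n hn)
    (Subgroup.card_map_of_injective (f := σ.toMonoidHom) σ.injective).ge

/-- The induced operator on an invariant quotient. -/
noncomputable def quotOp [Finite G] (σ : MulAut G) (N : Subgroup G) [N.Normal] (hN : ∀ n ∈ N, σ n ∈ N) :
    MulAut (G ⧸ N) :=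
  QuotientGroup.congr N N σ (map_eq_of_invariant N hN)

theorem quotOp_mk [Finite G] (σ : MulAut G) (N : Subgroup G) [N.Normal] (hN : ∀ n ∈ N, σ n ∈ N) (g : G) :
    quotOp σ N hN (g : G ⧸ N) = ((σ g : G) : G ⧸ N) := rfl

theorem Op.quot [Finite G] [Finite (MulAut G)] {σ : MulAut G} (h : Op σ) (N : Subgroup G) [N.Normal]
    (hN : ∀ n ∈ N, σ n ∈ N) : Op (quotOp σ N hN) where
  cube x := by
    obtain ⟨g, rfl⟩ := QuotientGroup.mk_surjective x
    rw [quotOp_mk, quotOp_mk, quotOp_mk, h.cube]
  free x hx hx2 := by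
    obtain ⟨g, rfl⟩ := QuotientGroup.mk_surjective x
    rw [quotOp_mk] at hx
    obtain ⟨n, hn, hfix⟩ := h.exists_fixed N hN (QuotientGroup.eq.1 hx.symm)
    obtain ⟨m, hm⟩ := h.odd_orderOf hfix
    have h1 : ((g * n : G) : G ⧸ N) = (g : G ⧸ N) := QuotientGroup.mk_mul_of_mem g hn
    have h2 : ((g : G) : G ⧸ N) ^ orderOf (g * n) = 1 := by
      rw [← h1, ← QuotientGroup.mk_pow, pow_orderOf_eq_one, QuotientGroup.mk_one]
    rwa [hm, pow_succ, pow_mul, pow_two, hx2, one_pow, one_mul] at h2
  notThree hd := h.notThree (hd.trans (Subgroup.card_quotient_dvd_card N))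

/-- The operator on an invariant subgroup. -/
noncomputable def subOp [Finite G] (σ : MulAut G) (N : Subgroup G) (hN : ∀ n ∈ N, σ n ∈ N) : MulAut N :=
  (σ.subgroupMap N).trans (MulEquiv.subgroupCongr (map_eq_of_invariant N hN))

theorem subOp_coe [Finite G] (σ : MulAut G) (N : Subgroup G) (hN : ∀ n ∈ N, σ n ∈ N) (x : N) :
    ((subOp σ N hN x : N) : G) = σ x := rfl

theorem Op.sub [Finite G] {σ : MulAut G} (h : Op σ) (N : Subgroup G) (hN : ∀ n ∈ N, σ n ∈ N) :
    Op (subOp σ N hN) where
  cube x := Subtype.ext (by rw [subOp_coe, subOp_coe, subOp_coe, h.cube])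
  free x hx hx2 := Subtype.ext (h.free _ (congrArg Subtype.val hx) (congrArg Subtype.val hx2))
  notThree hd := h.notThree (hd.trans (Subgroup.card_subgroup_dvd_card N))

/-- A simple group has no such operator. -/
theorem Op.comm_of_isSimpleGroup [Finite G] [IsSimpleGroup G] (hFT : CfsgLib.OddStep.P0205.{u})
    (hcl : OneClass.{u}) {σ : MulAut G} (h : Op σ) : ∀ a b : G, a * b = b * a := by
  classical
  by_contra hna
  push Not at hna
  haveI : Fintype G := Fintype.ofFinite G
  obtain ⟨t, ht⟩ := CfsgLib.OddCons.Basic.exists_involution hFT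
    (CfsgLib.OddCons.Basic.not_isSolvable_of_simple (G := G) fun hc => by
      obtain ⟨a, b, hab⟩ := hna
      exact hab (hc.1.1 a b))
  haveI : Fact (Nat.Prime 3) := ⟨Nat.prime_three⟩
  let X := {x : G // orderOf x = 2}
  have hX : X ≃ MulAction.orbit (ConjAct G) t :=
    Equiv.subtypeEquivRight fun x => by
      rw [ConjAct.mem_orbit_conjAct]
      constructor
      · intro hx
        exact hcl G hna h.notThree x t hx ht
      · intro hx
        rw [← ht]
        obtain ⟨c, hc⟩ := isConj_iff.1 hx
        exact (MulEquiv.orderOf_eq (MulAut.conj c) x).symm.trans (congrArg orderOf hc)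
  have hdvd : Fintype.card X ∣ Nat.card G := by
    rw [← Nat.card_eq_fintype_card, Nat.card_congr hX,
      Nat.card_coe_set_eq, ← MulAction.index_stabilizer]
    exact (Subgroup.index_dvd_card _).trans (dvd_of_eq (Nat.card_congr ConjAct.toConjAct.symm.toEquiv))
  let f : Equiv.Perm X := σ.toEquiv.subtypeEquiv fun x => by
    show orderOf x = 2 ↔ orderOf (σ x) = 2
    rw [MulEquiv.orderOf_eq]
  have hf : f ^ 3 ^ 1 = 1 := by
    ext x
    exact h.cube x.1
  obtain ⟨x, hx⟩ := Equiv.Perm.exists_fixed_point_of_prime (p := 3) (n := 1)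
    (fun h3 => h.notThree (h3.trans hdvd)) hf
  have h1 : x.1 = 1 := h.free _ (congrArg Subtype.val hx)
    (by
      have := pow_orderOf_eq_one x.1
      rw [x.2, pow_two] at this
      exact this)
  have h2 := x.2
  rw [h1, orderOf_one] at h2
  exact absurd h2 (by decide)

private theorem solvable_aux (hFT : CfsgLib.OddStep.P0205.{u}) (hcl : OneClass.{u}) :
    ∀ (n : ℕ) (G : Type u) [Group G] [Finite G] (σ : MulAut G), Nat.card G = n → Op σ →
      Group.IsSolvable G := by
  intro n
  induction n using Nat.strong_induction_on with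
  | h n ih =>
    intro G _ _ σ hn h
    haveI : Finite (MulAut G) := Finite.of_injective (fun f : MulAut G => (f : G → G))
      DFunLike.coe_injective
    rcases subsingleton_or_nontrivial G with hs | hnt
    · infer_instance
    by_cases hex : ∃ N : Subgroup G, N.Normal ∧ N ≠ ⊥ ∧ N ≠ ⊤ ∧ ∀ x ∈ N, σ x ∈ N
    · obtain ⟨N, hNn, hNb, hNt, hN⟩ := hex
      haveI := hNn
      have h1 : Nat.card N < n := hn ▸ (Subgroup.card_le_card_group N).lt_of_ne
        fun e => hNt (Subgroup.eq_top_of_card_eq N e)
      have h2 : Nat.card (G ⧸ N) < n := by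
        have h4 := Subgroup.card_eq_card_quotient_mul_card_subgroup N
        have h3 : 1 < Nat.card N := (Subgroup.one_lt_card_iff_ne_bot N).2 hNb
        have h5 : 0 < Nat.card (G ⧸ N) := Nat.card_pos
        nlinarith
      exact CfsgLib.OddCons.Basic.isSolvable_of_normal N (ih _ h1 N (subOp σ N hN) rfl (h.sub N hN))
        (ih _ h2 (G ⧸ N) (quotOp σ N hN) rfl (h.quot N hN))
    push Not at hex
    have hinv : ∀ N : Subgroup G, N.Normal → N ≠ ⊥ → (∀ x ∈ N, σ x ∈ N) → N = ⊤ := by
      intro N hNn hNb hN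
      by_contra hNt
      obtain ⟨x, hx, hx'⟩ := hex N hNn hNb hNt
      exact hx' (hN x hx)
    obtain ⟨M, ⟨hMn, hMb⟩, hMmin⟩ := (Set.toFinite {N : Subgroup G | N.Normal ∧ N ≠ ⊥}).exists_minimal
      ⟨⊤, inferInstance, top_ne_bot⟩
    rcases eq_or_ne M ⊤ with hMt | hMt
    · haveI : IsSimpleGroup G := ⟨fun N hNn => by
        rcases eq_or_ne N ⊥ with hb | hb
        · exact Or.inl hb
        · exact Or.inr (eq_top_iff.2 (hMt ▸ hMmin ⟨hNn, hb⟩ (hMt ▸ le_top)))⟩
      exact IsSimpleGroup.comm_iff_isSolvable.1 (h.comm_of_isSimpleGroup hFT hcl)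
    haveI := hMn
    set M1 := M.map σ.toMonoidHom with hM1
    set M2 := M1.map σ.toMonoidHom with hM2
    haveI : M1.Normal := hMn.map _ σ.surjective
    haveI : M2.Normal := Subgroup.Normal.map inferInstance _ σ.surjective
    have hM3 : M2.map σ.toMonoidHom = M := by
      rw [hM2, hM1, Subgroup.map_map, Subgroup.map_map]
      conv_rhs => rw [← Subgroup.map_id M]
      congr 1
      ext g
      exact h.cube g
    have hne1 : M1 ≠ M := fun e => hMt (hinv M hMn hMb fun x hx => e ▸ Subgroup.mem_map_of_mem _ hx)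
    have hne2 : M2 ≠ M := fun e => hne1 (by
      have h9 : M2.map σ.toMonoidHom = M1 := by rw [e, ← hM1]
      rw [← h9, hM3])
    have hne12 : M2 ≠ M1 := fun e => hne1 (Subgroup.map_injective (f := σ.toMonoidHom) σ.injective e)
    -- pairwise commuting
    have hdisj : ∀ K : Subgroup G, K.Normal → K ≠ M → Nat.card K = Nat.card M → Disjoint M K := by
      intro K hKn hKM hcard
      rw [disjoint_iff]
      by_contra hb
      haveI := hKn
      have hle := hMmin ⟨inferInstance, hb⟩ (inf_le_left : M ⊓ K ≤ M)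
      exact hKM (Subgroup.eq_of_le_of_card_ge (le_inf_iff.1 hle).2 hcard.le).symm
    have hc1 : Nat.card M1 = Nat.card M := Subgroup.card_map_of_injective σ.injective
    have hc2 : Nat.card M2 = Nat.card M := (Subgroup.card_map_of_injective σ.injective).trans hc1
    have com1 : ∀ a ∈ M, ∀ b ∈ M1, Commute a b := fun a ha b hb =>
      Subgroup.commute_of_normal_of_disjoint M M1 hMn inferInstance (hdisj M1 inferInstance hne1 hc1) a b ha hb
    have com2 : ∀ a ∈ M, ∀ b ∈ M2, Commute a b := fun a ha b hb =>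
      Subgroup.commute_of_normal_of_disjoint M M2 hMn inferInstance (hdisj M2 inferInstance hne2 hc2) a b ha hb
    have htop : M ⊔ M1 ⊔ M2 = ⊤ := by
      refine hinv _ inferInstance (fun e => hMb (eq_bot_iff.2 ((le_sup_left.trans le_sup_left).trans e.le)))
        fun x hx => ?_
      have := Subgroup.mem_map_of_mem σ.toMonoidHom hx
      rw [Subgroup.map_sup, Subgroup.map_sup, ← hM1, ← hM2, hM3] at this
      rwa [sup_comm, ← sup_assoc] at this
    have hcenter : ∀ t ∈ M, (∀ a ∈ M, Commute a t) → t ≠ 1 → Group.IsSolvable G := by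
      intro t ht htc ht1
      have hle : M ⊔ M1 ⊔ M2 ≤ Subgroup.centralizer ({t} : Set G) :=
        sup_le (sup_le (fun a ha => Subgroup.mem_centralizer_singleton_iff.2 (htc a ha))
          (fun b hb => Subgroup.mem_centralizer_singleton_iff.2 (com1 t ht b hb).symm))
          (fun b hb => Subgroup.mem_centralizer_singleton_iff.2 (com2 t ht b hb).symm)
      rw [htop] at hle
      have htZ : t ∈ Subgroup.center G := Subgroup.mem_center_iff.2 fun a =>
        Subgroup.mem_centralizer_singleton_iff.1 (hle (Subgroup.mem_top a))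
      have hZtop : Subgroup.center G = ⊤ := hinv _ inferInstance
        (fun e => ht1 (by rwa [e, Subgroup.mem_bot] at htZ))
        fun x hx => Subgroup.mem_center_iff.2 fun a => by
          obtain ⟨a, rfl⟩ := σ.surjective a
          rw [← map_mul, ← map_mul, Subgroup.mem_center_iff.1 hx a]
      exact Group.isSolvable_of_comm fun a b =>
        Subgroup.mem_center_iff.1 (hZtop ▸ Subgroup.mem_top b : b ∈ Subgroup.center G) a
    by_cases hMs : Group.IsSolvable M
    · haveI := hMs
      obtain ⟨t, ht, ht1⟩ := (Subgroup.ne_bot_iff_exists_ne_one.1 hMb).imp fun t ht => And.intro t.2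
        (fun e => ht (Subtype.ext e))
      refine hcenter _ ht (fun a ha => ?_) ht1
      have hcomm : ⁅M, M⁆ = ⊥ := by
        by_contra hb
        have hlt := CfsgLib.Coprime.commutator_self_lt hMs hMb
        exact hlt.ne (le_antisymm hlt.le (hMmin ⟨inferInstance, hb⟩ hlt.le))
      exact commutatorElement_eq_one_iff_commute.1 (by
        simpa [hcomm] using Subgroup.commutator_mem_commutator ha ht)
    obtain ⟨t, ht⟩ := CfsgLib.OddCons.Basic.exists_involution hFT hMs
    have ht2 : (t : G) * t = 1 := by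
      rw [← pow_two, ← ht, ← Subgroup.coe_pow, pow_orderOf_eq_one, Subgroup.coe_one]
    have ht1 : (t : G) ≠ 1 := fun e => by
      rw [show t = 1 from Subtype.ext e, orderOf_one] at ht
      exact absurd ht (by decide)
    have hb : σ (t : G) ∈ M1 := Subgroup.mem_map_of_mem σ.toMonoidHom t.2
    have hc : σ (σ (t : G)) ∈ M2 := Subgroup.mem_map_of_mem σ.toMonoidHom hb
    set a := (t : G)
    have hab := com1 a t.2 _ hb
    have hac := com2 a t.2 _ hc
    have hbc : Commute (σ a) (σ (σ a)) := hab.map σ.toMonoidHom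
    have hu : a * σ a * σ (σ a) = 1 := by
      refine h.free _ ?_ ?_
      · rw [map_mul, map_mul, h.cube, mul_assoc a]
        exact (hab.mul_right hac).symm.eq
      · rw [Commute.mul_mul_mul_comm (Commute.mul_left hac hbc).symm,
          Commute.mul_mul_mul_comm hab.symm, ht2, one_mul]
        rw [← map_mul, ht2, map_one, ← map_mul, ← map_mul, ht2, map_one, map_one, one_mul]
    refine hcenter a t.2 (fun x hx => ?_) ht1
    have he : a = (σ a * σ (σ a))⁻¹ := eq_inv_of_mul_eq_one_left (by rw [← mul_assoc]; exact hu)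
    rw [he]
    exact ((com1 x hx _ hb).mul_right (com2 x hx _ hc)).inv_right

theorem Op.isSolvable [Finite G] (hFT : CfsgLib.OddStep.P0205.{u}) (hcl : OneClass.{u}) {σ : MulAut G}
    (h : Op σ) : Group.IsSolvable G :=
  solvable_aux hFT hcl _ G σ rfl h

end CfsgLib.ThreeFree
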