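import Mathlib
import Cfsg.Agent.FpfAut.Internal
import Cfsg.Agent.Coprime.Basic

/-!
An operator of order three without fixed points on a normal 2-group centralizes, modulo the centralizer of
that 2-group, every solvable group of order prime to six which it normalizes.
-/

set_option autoImplicit false

open scoped commutatorElement

namespace CfsgLib.ThreeFree

universe u

/-- The involutions of the centre of `F`, with the identity. -/
def omegaCenter {X : Type*} [Group X] (F : Subgroup X) : Subgroup X where
  carrier := {x | x ∈ F ∧ (∀ y ∈ F, y * x = x * y) ∧ x * x = 1}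
  one_mem' := ⟨one_mem _, fun y _ => by simp, one_mul 1⟩
  mul_mem' := by
    rintro a b ⟨ha, hac, ha2⟩ ⟨hb, hbc, hb2⟩
    refine ⟨mul_mem ha hb, fun y hy => ?_, ?_⟩
    · rw [← mul_assoc, hac y hy, mul_assoc, hbc y hy, mul_assoc]
    · rw [mul_assoc, ← mul_assoc b a b, ← hbc a ha, mul_assoc a b b, hb2, mul_one, ha2]
  inv_mem' := by
    rintro a ⟨ha, hac, ha2⟩
    rw [inv_eq_of_mul_eq_one_right ha2]
    exact ⟨ha, hac, ha2⟩

theorem commutator_le_centralizer_of_twoGroup :
    ∀ (n : ℕ) (X : Type u) [Group X] [Finite X] (A R F : Subgroup X) [F.Normal],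
      Nat.card F = n → IsPGroup 2 F → Nat.card A = 3 → A ≤ Subgroup.normalizer (R : Set X) →
      Group.IsSolvable R → Nat.Coprime 6 (Nat.card R) →
      F ⊓ Subgroup.centralizer (A : Set X) = ⊥ →
      ⁅A, R⁆ ≤ Subgroup.centralizer (F : Set X) := by
  intro n
  induction n using Nat.strong_induction_on with
  | h n ih =>
    intro X _ _ A R F _ hn hF hA hAR hsol hcop hfix
    haveI : Fact (Nat.Prime 2) := ⟨Nat.prime_two⟩
    rcases eq_or_ne F ⊥ with rfl | hne
    · intro x _
      rw [Subgroup.mem_centralizer_iff]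
      intro y hy
      rw [Subgroup.mem_bot.1 hy, one_mul, mul_one]
    set V := omegaCenter F with hV
    have hVF : V ≤ F := fun x hx => hx.1
    haveI hVn : V.Normal := ⟨by
      rintro x ⟨hx, hxc, hx2⟩ g
      refine ⟨Subgroup.Normal.conj_mem inferInstance x hx g, fun y hy => ?_, ?_⟩
      · have h := hxc (g⁻¹ * y * g) (by simpa using Subgroup.Normal.conj_mem inferInstance y hy g⁻¹)
        calc y * (g * x * g⁻¹) = g * (g⁻¹ * y * g * x) * g⁻¹ := by group
          _ = g * (x * (g⁻¹ * y * g)) * g⁻¹ := by rw [h]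
          _ = g * x * g⁻¹ * y := by group
      · rw [conj_mul, hx2, mul_one, mul_inv_cancel]⟩
    have hVel : Cfsg.IsElementaryAbelian 2 V :=
      ⟨⟨⟨fun a b => Subtype.ext (b.2.2.1 a.1 a.2.1)⟩⟩, fun a ha => by rw [pow_two, ha.2.2]⟩
    have hVne : V ≠ ⊥ := by
      haveI : Nontrivial F := F.nontrivial_iff_ne_bot.2 hne
      haveI := hF.center_nontrivial
      obtain ⟨z, hz⟩ := exists_prime_orderOf_dvd_card' 2
        (G := Subgroup.center F) (by
          obtain ⟨k, hk, hk'⟩ := (IsPGroup.nontrivial_iff_card (hF.to_subgroup (Subgroup.center F))).1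
            inferInstance
          exact hk' ▸ dvd_pow_self 2 hk.ne')
      intro hbot
      have hmem : ((z : F) : X) ∈ V := by
        refine ⟨(z : F).2, fun y hy => ?_, ?_⟩
        · exact congrArg Subtype.val (Subgroup.mem_center_iff.1 z.2 ⟨y, hy⟩)
        · have := congrArg (fun w : Subgroup.center F => ((w : F) : X)) (hz ▸ pow_orderOf_eq_one z)
          simpa [pow_two] using this
      rw [hbot, Subgroup.mem_bot] at hmem
      have : z = 1 := Subtype.ext (Subtype.ext hmem)
      rw [this, orderOf_one] at hz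
      exact absurd hz (by decide)
    have h32 : (3 : ℕ).Coprime (Nat.card V) := by
      obtain ⟨k, hk⟩ := IsPGroup.iff_card.1 (hF.to_le hVF)
      rw [hk]; exact Nat.Coprime.pow_right k (by decide)
    have hR2 : (Nat.card R).Coprime 2 :=
      (Nat.Coprime.coprime_dvd_left (by decide : 2 ∣ 6) hcop).symm
    have hR3 : (3 : ℕ).Coprime (Nat.card R) := Nat.Coprime.coprime_dvd_left (by decide : 3 ∣ 6) hcop
    have hexc : ∀ l j : ℕ, l.Prime → l ∣ Nat.card R → 1 ≤ j → 3 ≠ l ^ j + 1 := by
      intro l j hl hd hj h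
      have h2 : l ^ j = 2 := by omega
      have hl2 : l ∣ 2 := h2 ▸ dvd_pow_self l (by omega)
      exact hl.one_lt.ne' (Nat.eq_one_of_dvd_coprimes hR2 hd hl2)
    have hcentV : ⁅A, R⁆ ≤ Subgroup.centralizer (V : Set X) :=
      CfsgLib.FpfAut.commutator_le_centralizer_of_solvable Nat.prime_two Nat.prime_three (by decide)
        A R V hA hVel hsol hexc hAR Subgroup.le_normalizer_of_normal Subgroup.le_normalizer_of_normal
        hR2 hR3 (eq_bot_iff.2 fun x hx => hfix ▸ ⟨hVF hx.1, hx.2⟩)
    -- the quotient
    set π := QuotientGroup.mk' V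
    haveI : (F.map π).Normal := Subgroup.Normal.map inferInstance π (QuotientGroup.mk'_surjective V)
    have hlt : Nat.card (F.map π) < n := by
      have h1 := CfsgLib.Constrained.relIndex_eq_card_map V F
      rw [← h1]
      have h2 := Subgroup.card_mul_index (V.subgroupOf F)
      have h3 : Nat.card (V.subgroupOf F) = Nat.card V :=
        Nat.card_congr (Subgroup.subgroupOfEquivOfLe hVF).toEquiv
      rw [h3, hn] at h2
      have h4 : 1 < Nat.card V := (Subgroup.one_lt_card_iff_ne_bot V).2 hVne
      have h5 : 0 < n := hn ▸ Nat.card_pos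
      rw [Subgroup.relIndex]
      nlinarith
    have hmapA : Nat.card (A.map π) = 3 := by
      rcases (Nat.dvd_prime Nat.prime_three).1 (hA ▸ CfsgLib.Constrained.card_map_dvd_card π A) with h | h
      · exfalso
        have hAV : A ≤ V := by
          rw [← QuotientGroup.ker_mk' V, ← Subgroup.map_eq_bot_iff]
          exact Subgroup.eq_bot_of_card_eq _ h
        have := Subgroup.card_dvd_of_le hAV
        rw [hA] at this
        have := Nat.eq_one_of_dvd_coprimes h32 dvd_rfl this
        omega
      · exact h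
    have hrec : ⁅A.map π, R.map π⁆ ≤ Subgroup.centralizer ((F.map π : Subgroup (X ⧸ V)) : Set (X ⧸ V)) := by
      refine ih _ hlt (X ⧸ V) (A.map π) (R.map π) (F.map π) rfl (hF.map π) hmapA ?_ ?_ ?_ ?_
      · exact (Subgroup.map_mono hAR).trans (Subgroup.le_normalizer_map π)
      · exact CfsgLib.Coprime.isSolvable_map π R hsol
      · exact hcop.coprime_dvd_right (CfsgLib.Constrained.card_map_dvd_card π R)
      · rw [← CfsgLib.Coprime.map_inf_centralizer hVF (hA.symm ▸ h32)
          (Or.inl (by
            haveI : Fact (Nat.Prime 3) := ⟨Nat.prime_three⟩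
            exact CfsgLib.Coprime.isSolvable_of_isPGroup
              (IsPGroup.of_card (p := 3) (n := 1) (by rw [hA, pow_one])))), hfix, Subgroup.map_bot]
    intro y hy
    have hyR : y ∈ R := Subgroup.commutator_le.2 (fun a ha r hr => by
      rw [commutatorElement_def]
      exact mul_mem ((Subgroup.mem_normalizer_iff.1 (hAR ha) r).1 hr) (inv_mem hr)) hy
    have hstab : ⁅F, Subgroup.zpowers y⁆ ≤ V := by
      rw [← QuotientGroup.ker_mk' V, ← Subgroup.map_eq_bot_iff, Subgroup.map_commutator,
        Subgroup.commutator_eq_bot_iff_le_centralizer, Subgroup.le_centralizer_iff, MonoidHom.map_zpowers,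
        Subgroup.zpowers_le]
      exact hrec (by rw [← Subgroup.map_commutator]; exact Subgroup.mem_map_of_mem π hy)
    have hVy : V ≤ Subgroup.centralizer ((Subgroup.zpowers y : Subgroup X) : Set X) := by
      rw [Subgroup.le_centralizer_iff, Subgroup.zpowers_le]
      exact hcentV hy
    have hcy : (Nat.card (Subgroup.zpowers y)).Coprime (Nat.card V) := by
      obtain ⟨k, hk⟩ := IsPGroup.iff_card.1 (hF.to_le hVF)
      rw [hk]
      exact (hR2.coprime_dvd_left (Subgroup.card_dvd_of_le (Subgroup.zpowers_le.2 hyR))).pow_right k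
    have := CfsgLib.Coprime.le_centralizer_of_stab hcy hstab hVy
    rw [Subgroup.le_centralizer_iff, Subgroup.zpowers_le] at this
    exact this

end CfsgLib.ThreeFree
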