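import Mathlib
import Cfsg.Agent.ThreeFree.Basic
import Cfsg.Agent.ThreeFree.TwoGroup
import Cfsg.Agent.Constrained.Fitting
import Cfsg.Agent.FpfAut.OrderFour

/-!
An automorphism of order three without fixed involutions of a group of order prime to three: the group is
`O_{2',2}` times the fixed points, granted one class of involutions in the simple groups of order prime to
three.
-/

set_option autoImplicit false

open Cfsg
open scoped commutatorElement

namespace CfsgLib.ThreeFree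

universe u

variable {G : Type u} [Group G] [Finite G]

theorem finite_mulAut : Finite (MulAut G) :=
  Finite.of_injective (fun f : MulAut G => (f : G → G)) DFunLike.coe_injective

/-- The odd invariant groups centralize `O₂` modulo their fixed points. -/
theorem Op.commutator_centralizes {σ : MulAut G} (h : Op σ) (hσ : σ ≠ 1) (R : Subgroup G)
    (hR : ∀ x ∈ R, σ x ∈ R) [Group.IsSolvable R] (hodd : Nat.Coprime 2 (Nat.card R))
    (r : G) (hr : r ∈ R) : r⁻¹ * σ r ∈ Subgroup.centralizer ((pCore 2 G : Subgroup G) : Set G) := by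
  haveI := finite_mulAut (G := G)
  haveI : Fact (Nat.Prime 2) := ⟨Nat.prime_two⟩
  set φ := (Subgroup.zpowers σ).subtype with hφ
  haveI := CfsgLib.Coprime.finite_semidirect φ
  set ι := SemidirectProduct.inl (φ := φ)
  set A := (SemidirectProduct.inr (φ := φ)).range with hA
  set F := (pCore 2 G).map ι with hF
  set gen : Subgroup.zpowers σ := ⟨σ, Subgroup.mem_zpowers σ⟩
  have hchar : ∀ a : Subgroup.zpowers σ, ∀ x ∈ pCore 2 G, (a : MulAut G) x ∈ pCore 2 G := fun a x hx =>
    (CfsgLib.Constrained.pCore_map (a : MulAut G) 2).le ⟨x, hx, rfl⟩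
  haveI : F.Normal := by
    rw [← Subgroup.normalizer_eq_top_iff, eq_top_iff]
    have htop : ⊤ ≤ (ι.range ⊔ A) := by
      intro x _
      rw [← SemidirectProduct.inl_left_mul_inr_right x]
      exact Subgroup.mul_mem_sup ⟨_, rfl⟩ ⟨_, rfl⟩
    refine htop.trans (sup_le ?_ (CfsgLib.Coprime.inr_le_normalizer_map_inl φ hchar))
    refine CfsgLib.Coprime.le_normalizer_of_conj_mem ?_
    rintro _ ⟨g, rfl⟩ _ ⟨x, hx, rfl⟩
    exact ⟨g * x * g⁻¹, Subgroup.Normal.conj_mem inferInstance x hx g, by simp [ι]⟩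
  have hA3 : Nat.card A = 3 := by
    rw [hA, CfsgLib.Coprime.card_range_inr, Nat.card_zpowers]
    exact orderOf_eq_prime (hp := ⟨Nat.prime_three⟩) h.pow_three hσ
  have key := commutator_le_centralizer_of_twoGroup _ (G ⋊[φ] Subgroup.zpowers σ) A (R.map ι) F rfl
    ((CfsgLib.Constrained.isPGroup_pCore (p := 2) (G := G)).map ι) hA3
    (CfsgLib.Coprime.inr_le_normalizer_map_inl φ fun a x hx => invariant_zpowers R hR h a x hx)
    (CfsgLib.Coprime.isSolvable_map ι R inferInstance)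
    (by
      rw [CfsgLib.Coprime.card_map_inl]
      exact Nat.Coprime.mul_left (k := Nat.card R) hodd
        (Nat.prime_three.coprime_iff_not_dvd.2 fun hd => h.notThree (hd.trans R.card_subgroup_dvd_card)))
    (by
      rw [Subgroup.eq_bot_iff_forall]
      rintro _ ⟨⟨x, hx, rfl⟩, hc⟩
      have hfix := (CfsgLib.Coprime.inl_mem_centralizer_range_inr_iff φ).1 hc gen
      obtain ⟨m, hm⟩ := h.odd_orderOf (show σ x = x from hfix)
      obtain ⟨k, hk⟩ := IsPGroup.iff_orderOf.1 CfsgLib.Constrained.isPGroup_pCore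
        (⟨x, hx⟩ : pCore 2 G)
      rw [Subgroup.orderOf_mk] at hk
      rcases k with _ | k
      · rw [pow_zero, orderOf_eq_one_iff] at hk
        rw [hk, map_one]
      · rw [hk, pow_succ'] at hm
        omega)
  have hmem : ι (σ r * r⁻¹) ∈ ⁅A, R.map ι⁆ := by
    have hgenA : (SemidirectProduct.inr (φ := φ)) gen ∈ A := ⟨gen, rfl⟩
    have := Subgroup.commutator_mem_commutator hgenA (Subgroup.mem_map_of_mem ι hr)
    rwa [commutatorElement_def, ← map_inv (SemidirectProduct.inr (φ := φ)),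
      ← SemidirectProduct.inl_aut, ← map_inv ι, ← map_mul] at this
  have hc := key hmem
  have hg : σ r * r⁻¹ ∈ Subgroup.centralizer ((pCore 2 G : Subgroup G) : Set G) :=
    Subgroup.mem_centralizer_iff.2 fun x hx => SemidirectProduct.inl_injective (φ := φ)
      (by rw [map_mul, map_mul]; exact Subgroup.mem_centralizer_iff.1 hc _ (Subgroup.mem_map_of_mem ι hx))
  haveI : (Subgroup.centralizer ((pCore 2 G : Subgroup G) : Set G)).Normal := inferInstance
  have := Subgroup.Normal.conj_mem inferInstance _ hg r⁻¹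
  rwa [inv_inv, ← mul_assoc, inv_mul_cancel_right] at this

theorem Op.inv_mul_mem_pCore [Group.IsSolvable G] {σ : MulAut G} (h : Op σ)
    (hO : pPrimeCore 2 G = ⊥) (q : G) : q⁻¹ * σ q ∈ pCore 2 G := by
  haveI : Fact (Nat.Prime 2) := ⟨Nat.prime_two⟩
  rcases eq_or_ne σ 1 with hσ | hσ
  · subst hσ
    simp
  haveI := finite_mulAut (G := G)
  have hchar : ∀ x ∈ pCore 2 G, σ x ∈ pCore 2 G := fun x hx =>
    (CfsgLib.Constrained.pCore_map σ 2).le ⟨x, hx, rfl⟩
  set Q := G ⧸ pCore 2 G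
  set τ := quotOp σ (pCore 2 G) hchar with hτ
  have hq : Op τ := h.quot _ hchar
  haveI := finite_mulAut (G := Q)
  haveI : Group.IsSolvable Q := Group.isSolvable_of_surjective (QuotientGroup.mk'_surjective _)
  set F := fittingSubgroup Q with hFdef
  haveI : Group.IsNilpotent F := CfsgLib.Constrained.isNilpotent_fitting
  have hFinv : ∀ x ∈ F, τ x ∈ F := fun x hx => (CfsgLib.Constrained.fitting_map τ).le ⟨x, hx, rfl⟩
  have hodd2 : ¬ 2 ∣ Nat.card F := by
    intro hd
    obtain ⟨P⟩ : Nonempty (Sylow 2 F) := inferInstance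
    have hle : (P : Subgroup F).map F.subtype ≤ pCore 2 Q :=
      CfsgLib.Constrained.map_sylow_le_pCore inferInstance inferInstance P
    rw [CfsgLib.Constrained.pCore_quotient_pCore, le_bot_iff, Subgroup.map_eq_bot_iff,
      Subgroup.ker_subtype, le_bot_iff] at hle
    have := P.card_eq_multiplicity
    rw [hle, Subgroup.card_bot] at this
    have h0 : 0 < (Nat.card F).factorization 2 :=
      Nat.prime_two.factorization_pos_of_dvd Nat.card_pos.ne' hd
    have := Nat.one_lt_pow h0.ne' (by norm_num : 1 < 2)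
    omega
  have hfixF : ∀ x ∈ F, τ x = x := by
    -- the elements fixed by `τ`
    let D : Subgroup Q :=
      { carrier := {x | τ x = x}
        one_mem' := map_one τ
        mul_mem' := fun {a b} ha hb => by show τ (a * b) = a * b; rw [map_mul, ha, hb]
        inv_mem' := fun {a} ha => by show τ a⁻¹ = a⁻¹; rw [map_inv, ha] }
    suffices hle : F ≤ D from fun x hx => hle hx
    suffices ht : D.subgroupOf F = ⊤ by rwa [Subgroup.subgroupOf_eq_top] at ht
    refine CfsgLib.Constrained.eq_top_of_forall_sylow_le _ fun r hr => ?_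
    haveI : Fact r.Prime := ⟨hr⟩
    by_cases hr2 : r = 2
    · subst hr2
      obtain ⟨P⟩ : Nonempty (Sylow 2 F) := inferInstance
      refine ⟨P, fun x hx => ?_⟩
      rw [Subgroup.mem_subgroupOf]
      obtain ⟨k, hk⟩ := IsPGroup.iff_orderOf.1 P.2 ⟨x, hx⟩
      rw [Subgroup.orderOf_mk] at hk
      rcases k with _ | k
      · rw [pow_zero, orderOf_eq_one_iff] at hk
        rw [hk, Subgroup.coe_one]; exact D.one_mem
      · exact absurd ((hk ▸ dvd_pow_self 2 k.succ_ne_zero).trans (orderOf_dvd_natCard x)) hodd2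
    -- an invariant Sylow subgroup of the preimage of `F`
    set K := F.comap (QuotientGroup.mk' (pCore 2 G)) with hK
    have hKinv : ∀ y ∈ K, σ y ∈ K := fun y hy => hFinv _ hy
    haveI := finite_mulAut (G := K)
    have hKop := h.sub K hKinv
    obtain ⟨R, hR⟩ := CfsgLib.Coprime.exists_invariant_sylow_action (p := r)
      (Subgroup.zpowers (subOp σ K hKinv)).subtype hKop.coprime
      (Or.inl (CfsgLib.Coprime.isSolvable_zpowers _))
    have hR' := hR ⟨_, Subgroup.mem_zpowers _⟩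
    let f : K →* F := (QuotientGroup.mk' (pCore 2 G)).subgroupComap F
    have hf : Function.Surjective f :=
      (QuotientGroup.mk' (pCore 2 G)).subgroupComap_surjective_of_surjective F
        (QuotientGroup.mk'_surjective _)
    refine ⟨R.mapSurjective hf, fun x hx => ?_⟩
    rw [Subgroup.mem_subgroupOf]
    obtain ⟨y, hy, hyx⟩ := hx
    set R' := (R : Subgroup K).map K.subtype
    have hR'inv : ∀ z ∈ R', σ z ∈ R' := by
      rintro _ ⟨z, hz, rfl⟩
      exact ⟨_, hR' z hz, rfl⟩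
    haveI : Group.IsSolvable R' := CfsgLib.Coprime.isSolvable_of_isPGroup (R.2.map K.subtype)
    have hRodd : Nat.Coprime 2 (Nat.card R') := by
      obtain ⟨k, hk⟩ := IsPGroup.iff_card.1 (R.2.map K.subtype)
      rw [hk]
      exact ((Nat.coprime_primes Nat.prime_two hr).2 (Ne.symm hr2)).pow_right k
    have hc2 := h.commutator_centralizes hσ R' hR'inv hRodd y ⟨y, hy, rfl⟩
    have hmem : (y : G)⁻¹ * σ y ∈ pCore 2 G := by
      rw [← CfsgLib.Constrained.fitting_eq_pCore hO] at hc2 ⊢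
      exact CfsgLib.Constrained.centralizer_fitting_le hc2
    show τ (x : Q) = x
    rw [← hyx]
    exact (QuotientGroup.eq.2 hmem).symm
  have hall := CfsgLib.Coprime.aut_eq_one_of_stab (Subgroup.zpowers τ).subtype hq.coprime F
    (fun a n hn => fixed_zpowers (hfixF n hn) a) (fun a g => by
      refine CfsgLib.Constrained.centralizer_fitting_le (Subgroup.mem_centralizer_iff.2 fun f hf => ?_)
      have hconj : g * f * g⁻¹ ∈ F := Subgroup.Normal.conj_mem inferInstance f hf g
      have h1 : (a : MulAut Q) (g * f * g⁻¹) = g * f * g⁻¹ := fixed_zpowers (hfixF _ hconj) a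
      rw [map_mul, map_mul, map_inv, show (a : MulAut Q) f = f from fixed_zpowers (hfixF f hf) a] at h1
      have h2 : g⁻¹ * ((a : MulAut Q) g * f * ((a : MulAut Q) g)⁻¹) * (a : MulAut Q) g =
          g⁻¹ * (g * f * g⁻¹) * (a : MulAut Q) g := by rw [h1]
      show f * (g⁻¹ * (a : MulAut Q) g) = g⁻¹ * (a : MulAut Q) g * f
      calc f * (g⁻¹ * (a : MulAut Q) g) = g⁻¹ * (g * f * g⁻¹) * (a : MulAut Q) g := by group
        _ = _ := by rw [← h2]; group) ⟨τ, Subgroup.mem_zpowers τ⟩ (q : Q)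
  exact QuotientGroup.eq.1 hall.symm

/-- The structure: `G = O_{2',2}(G) C(σ)`, of odd index. -/
theorem Op.pPrimePCore_sup [Group.IsSolvable G] {σ : MulAut G} (h : Op σ) :
    pPrimePCore 2 G ⊔ Subgroup.closure {g : G | σ g = g} = ⊤ ∧ ¬ 2 ∣ (pPrimePCore 2 G).index := by
  haveI : Fact (Nat.Prime 2) := ⟨Nat.prime_two⟩
  haveI := finite_mulAut (G := G)
  have hO : ∀ x ∈ pPrimeCore 2 G, σ x ∈ pPrimeCore 2 G := fun x hx =>
    (CfsgLib.Constrained.pPrimeCore_map σ 2).le ⟨x, hx, rfl⟩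
  haveI := finite_mulAut (G := G ⧸ pPrimeCore 2 G)
  haveI : Group.IsSolvable (G ⧸ pPrimeCore 2 G) :=
    Group.isSolvable_of_surjective (QuotientGroup.mk'_surjective _)
  set K := pPrimePCore 2 G with hK
  have hKinv : ∀ x ∈ K, σ x ∈ K := fun x hx =>
    (CfsgLib.Constrained.map_pPrimePCore_map σ 2).le ⟨x, hx, rfl⟩
  have hlift : ∀ g : G, ∃ k ∈ K, σ (g * k) = g * k := fun g =>
    h.exists_fixed K hKinv ((h.quot (pPrimeCore 2 G) hO).inv_mul_mem_pCore
      CfsgLib.Constrained.pPrimeCore_quotient_pPrimeCore (g : G ⧸ pPrimeCore 2 G))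
  let C : Subgroup G :=
    { carrier := {g | σ g = g}
      one_mem' := map_one σ
      mul_mem' := fun {a b} ha hb => by show σ (a * b) = a * b; rw [map_mul, ha, hb]
      inv_mem' := fun {a} ha => by show σ a⁻¹ = a⁻¹; rw [map_inv, ha] }
  have hgen : ∀ g : G, ∃ c ∈ C, ∃ k ∈ K, c * k = g := fun g => by
    obtain ⟨k, hk, hf⟩ := hlift g
    exact ⟨g * k, hf, k⁻¹, inv_mem hk, mul_inv_cancel_right g k⟩
  refine ⟨eq_top_iff.2 fun g _ => ?_, fun h2 => ?_⟩
  · obtain ⟨c, hc, k, hk, rfl⟩ := hgen g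
    exact mul_mem (Subgroup.mem_sup_right (Subgroup.subset_closure hc)) (Subgroup.mem_sup_left hk)
  · haveI : K.Normal := inferInstance
    have hsurj : Function.Surjective ((QuotientGroup.mk' K).comp C.subtype) := by
      intro x
      obtain ⟨g, rfl⟩ := QuotientGroup.mk'_surjective K x
      obtain ⟨c, hc, k, hk, rfl⟩ := hgen g
      exact ⟨⟨c, hc⟩, (QuotientGroup.mk_mul_of_mem c hk).symm⟩
    have hdvd : K.index ∣ Nat.card C :=
      Subgroup.index_eq_card K ▸ Subgroup.card_dvd_of_surjective _ hsurj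
    obtain ⟨x, hx⟩ := exists_prime_orderOf_dvd_card' 2 (h2.trans hdvd)
    have h3 := h.odd_orderOf (g := (x : G)) x.2
    rw [Subgroup.orderOf_coe, hx] at h3
    exact absurd h3 (by decide)

/-- A fixed-point-free symmetric group of degree three. -/
theorem op_of_symThree (h3 : ¬ 3 ∣ Nat.card G) (Sig : Subgroup (MulAut G))
    (hS3 : Nonempty (↥Sig ≃* Equiv.Perm (Fin 3))) (hfpf : ∀ g : G, (∀ σ ∈ Sig, σ g = g) → g = 1)
    {σ : MulAut G} (hσ : σ ∈ Sig) (hord : orderOf σ = 3) : Op σ := by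
  obtain ⟨e⟩ := hS3
  haveI := finite_mulAut (G := G)
  have hpow : σ ^ 3 = 1 := hord ▸ pow_orderOf_eq_one σ
  have h6 : Nat.card Sig = 6 := by
    rw [Nat.card_congr e.toEquiv, Nat.card_perm, Nat.card_fin]; rfl
  haveI : Fact (Nat.Prime 2) := ⟨Nat.prime_two⟩
  haveI : Fact (Nat.Prime 3) := ⟨Nat.prime_three⟩
  obtain ⟨τ, hτ⟩ := exists_prime_orderOf_dvd_card' 2 (G := Sig) (by rw [h6]; norm_num)
  set S := Subgroup.zpowers (⟨σ, hσ⟩ : Sig) with hS
  have hidx : S.index = 2 := by
    have := S.card_mul_index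
    rw [hS, Nat.card_zpowers, Subgroup.orderOf_mk, hord, h6] at this
    rw [hS]
    omega
  have hτσ : τ⁻¹ * ⟨σ, hσ⟩ * τ ∈ S := by
    have hn : S.Normal := Subgroup.normal_of_index_eq_two hidx
    simpa using hn.conj_mem _ (Subgroup.mem_zpowers (⟨σ, hσ⟩ : Sig)) τ⁻¹
  have hcube : ∀ g : G, σ (σ (σ g)) = g := fun g => by
    have h0 := DFunLike.congr_fun (show σ * σ * σ = (1 : MulAut G) by rw [← pow_two, ← pow_succ, hpow]) g
    simpa using h0
  refine ⟨hcube, fun g hg hg2 => ?_, h3⟩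
  let C : Subgroup G :=
    { carrier := {g | σ g = g}
      one_mem' := map_one σ
      mul_mem' := fun {a b} ha hb => by show σ (a * b) = a * b; rw [map_mul, ha, hb]
      inv_mem' := fun {a} ha => by show σ a⁻¹ = a⁻¹; rw [map_inv, ha] }
  have hτC : ∀ x ∈ C, (τ : MulAut G) x ∈ C := by
    intro x hx
    obtain ⟨k, hk⟩ := Subgroup.mem_zpowers_iff.1 hτσ
    have hk' : ((τ : MulAut G))⁻¹ * σ * (τ : MulAut G) = σ ^ k := by
      simpa using (congrArg Subtype.val hk).symm
    have hfix : (σ ^ k) x = x := (Subgroup.zpow_mem (MulAction.stabilizer (MulAut G) x) hx k :)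
    show σ ((τ : MulAut G) x) = (τ : MulAut G) x
    rw [← hk'] at hfix
    exact (MulEquiv.symm_apply_eq (τ : MulAut G)).1 hfix
  have hcommon : ∀ x ∈ C, (τ : MulAut G) x = x → x = 1 := by
    intro x hx hτx
    refine hfpf x fun ρ hρ => ?_
    let W : Subgroup Sig := (MulAction.stabilizer (MulAut G) x).subgroupOf Sig
    have hσW : (⟨σ, hσ⟩ : Sig) ∈ W := hx
    have hτW : τ ∈ W := hτx
    have hd3 : 3 ∣ Nat.card W := by
      rw [← hord, ← Subgroup.orderOf_mk σ hσ]; exact W.orderOf_dvd_natCard hσW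
    have hd2 : 2 ∣ Nat.card W := hτ ▸ W.orderOf_dvd_natCard hτW
    have hW : W = ⊤ := Subgroup.eq_top_of_card_eq W (Nat.dvd_antisymm W.card_subgroup_dvd_card
      (h6 ▸ Nat.Coprime.mul_dvd_of_dvd_of_dvd (by decide : Nat.Coprime 2 3) hd2 hd3))
    exact (hW ▸ Subgroup.mem_top (⟨ρ, hρ⟩ : Sig) : (⟨ρ, hρ⟩ : Sig) ∈ W)
  let τC := subOp (τ : MulAut G) C hτC
  have h4 : τC ^ 4 = 1 := by
    have ht : (τ : MulAut G) ^ 4 = 1 := by
      rw [show 4 = 2 * 2 from rfl, pow_mul, ← Subgroup.coe_pow, ← hτ, pow_orderOf_eq_one]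
      simp
    ext x
    exact DFunLike.congr_fun ht (x : G)
  have hodd := CfsgLib.FpfAut.odd_card τC h4 fun x hx =>
    Subtype.ext (hcommon x x.2 (congrArg Subtype.val hx))
  by_contra hne
  have h2 : orderOf (⟨g, hg⟩ : C) = 2 := orderOf_eq_prime (by rw [pow_two]; exact Subtype.ext hg2)
    fun e => hne (congrArg Subtype.val e)
  exact (Nat.not_even_iff_odd.2 hodd) (even_iff_two_dvd.2 (h2 ▸ orderOf_dvd_natCard (⟨g, hg⟩ : C)))

/-- Groups of order prime to three with a fixed-point-free symmetric group of degree three. -/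
theorem symThree_structure (hFT : CfsgLib.OddStep.P0205.{u}) (hcl : OneClass.{u}) (h3 : ¬ 3 ∣ Nat.card G)
    (Sig : Subgroup (MulAut G)) (hS3 : Nonempty (↥Sig ≃* Equiv.Perm (Fin 3)))
    (hfpf : ∀ g : G, (∀ σ ∈ Sig, σ g = g) → g = 1) :
    Group.IsSolvable G ∧ ¬ 2 ∣ (pPrimePCore 2 G).index ∧ ∀ σ ∈ Sig, orderOf σ = 3 →
      pPrimePCore 2 G ⊔ Subgroup.closure {g : G | σ g = g} = ⊤ := by
  haveI := finite_mulAut (G := G)
  haveI : Fact (Nat.Prime 3) := ⟨Nat.prime_three⟩
  obtain ⟨e⟩ := hS3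
  obtain ⟨σ₀, hσ₀⟩ := exists_prime_orderOf_dvd_card' 3 (G := Sig) (by
    rw [Nat.card_congr e.toEquiv, Nat.card_perm, Nat.card_fin]; decide)
  have hop := fun {σ : MulAut G} (hσ : σ ∈ Sig) (ho : orderOf σ = 3) =>
    op_of_symThree h3 Sig ⟨e⟩ hfpf hσ ho
  have h₀ := hop σ₀.2 (by rw [Subgroup.orderOf_coe, hσ₀])
  haveI : Group.IsSolvable G := h₀.isSolvable hFT hcl
  exact ⟨inferInstance, h₀.pPrimePCore_sup.2, fun σ hσ ho => (hop hσ ho).pPrimePCore_sup.1⟩

end CfsgLib.ThreeFree
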