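import Mathlib
import Cfsg.Agent.ThreeFree.Main
import Cfsg.Agent.StronglyEmbedded.Count

/-!
One class of involutions from strongly embedded subgroups.
-/

set_option autoImplicit false

open Cfsg

namespace CfsgLib.ThreeFree

universe u

/-- Strongly embedded subgroups give one class of involutions. -/
theorem oneClass_of_stronglyEmbedded
    (h : ∀ (G : Type u) [Group G] [Finite G] [IsSimpleGroup G], (∃ a b : G, a * b ≠ b * a) →
      ¬ 3 ∣ Nat.card G → ∃ H : Subgroup G, IsStronglyEmbedded H) : OneClass.{u} := by
  intro G _ _ _ hna h3 s t hs ht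
  obtain ⟨H, hH⟩ := h G hna h3
  exact CfsgLib.StronglyEmbedded.isConj_involutions hH hs ht

end CfsgLib.ThreeFree
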